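import Cfsg.Agent.H566.NoE.Suz
import Cfsg.Agent.H566.NoE.Fi22
import Cfsg.Agent.H959.T5.Tools

/-!
# S3854: the rows `Suz` and `Fi22` (helper54)

Translation of the rows of S3846 (helper566, `H566/NoE`).
-/

set_option autoImplicit false

namespace Cfsg.Agent.H54.TE

open Cfsg Subgroup Cfsg.Agent.H459.Rad Cfsg.Agent.H301.SY Cfsg.Agent.H959.T5 Cfsg.Agent.H566.NoE

/-- a proper subgroup of index prime to `p` with radical of order prime to `p` -/
theorem noTE_of_index {K : Type*} [Group K] [Finite K] {p : ℕ} [hp : Fact p.Prime] {L : Subgroup K} (hL : L ≠ ⊤)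
    (hi : ¬ p ∣ L.index) (hr : ¬ p ∣ Nat.card (radIn L)) : NoTE p K := by
  obtain ⟨S⟩ : Nonempty (Sylow p L) := inferInstance
  have h1 : IsPGroup p ↥((S : Subgroup L).map L.subtype) := S.isPGroup'.map _
  obtain ⟨P, hP⟩ := h1.exists_le_sylow
  refine NoTE.of_sylow hL P ?_ hr
  have h2 : (S : Subgroup L).map L.subtype = (P : Subgroup K) := by
    refine Subgroup.eq_of_le_of_card_ge hP ?_
    rw [Subgroup.card_map_of_injective L.subtype_injective, S.card_eq_multiplicity, P.card_eq_multiplicity]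
    refine Nat.pow_le_pow_right hp.out.pos ?_
    rw [← L.card_mul_index, Nat.factorization_mul Nat.card_pos.ne' L.index_ne_zero_of_finite]
    rw [Finsupp.add_apply, Nat.factorization_eq_zero_of_not_dvd hi, add_zero]
  rw [← h2]
  exact map_subtype_le _

/-- `G₂(4)` in `Suz` -/
theorem suz_sub {p : ℕ} [hp : Fact p.Prime] [Finite Spor.Suz] (hK : Nat.card Spor.Suz = 448345497600)
    (h : ¬ p ∣ 1782) : NoTE p Spor.Suz := by
  obtain ⟨F, _, _, hF, ⟨e⟩⟩ := Cfsg.Agent.S1679.result
  have hF' : ∃ a : F, a ≠ 0 ∧ a ≠ 1 := by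
    classical
    by_contra hcon
    push Not at hcon
    have h1 : (Finset.univ : Finset F) ⊆ {0, 1} := by
      intro a _
      rw [Finset.mem_insert, Finset.mem_singleton]
      by_cases h0 : a = 0
      · exact Or.inl h0
      · exact Or.inr (hcon a h0)
    have h2 := Finset.card_le_card h1
    rw [Finset.card_univ, hF] at h2
    have h3 : ({0, 1} : Finset F).card ≤ 2 := Finset.card_le_two
    omega
  obtain ⟨hs, hna⟩ := Cfsg.Agent.S1055.result hF'
  have hc : Nat.card ↥(Lie.chevG2.group F) = 251596800 := by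
    rw [Cfsg.Agent.S1059.result (F := F) (q := 4) hF]
    norm_num
  have hfin : Finite ↥(Lie.chevG2.group F) := Nat.finite_of_card_ne_zero (by rw [hc]; norm_num)
  have hL := Nat.card_congr e.toEquiv
  rw [hc] at hL
  have hidx := Subgroup.card_mul_index (((Subgroup.closure ({Cfsg.Spor.Suz.a, Cfsg.Spor.Suz.b, Cfsg.Spor.Suz.c, Cfsg.Spor.Suz.d, Cfsg.Spor.Suz.e, Cfsg.Spor.Suz.f} : Set (FreeGroup Cfsg.Spor.Suz.Gen))).map (PresentedGroup.mk (Cfsg.Spor.coxRelators Cfsg.Spor.Suz.edges ∪ {r | r ∈ Cfsg.Spor.Suz.extra}))))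
  rw [hL] at hidx
  have hi := hidx.trans hK
  refine noTE_of_index ?_ ?_ (rad_simple (not_solvable hna) e)
  · intro ht
    rw [ht, Subgroup.index_top] at hi
    norm_num at hi
  · intro hd
    apply h
    have h2 : Subgroup.index (((Subgroup.closure ({Cfsg.Spor.Suz.a, Cfsg.Spor.Suz.b, Cfsg.Spor.Suz.c, Cfsg.Spor.Suz.d, Cfsg.Spor.Suz.e, Cfsg.Spor.Suz.f} : Set (FreeGroup Cfsg.Spor.Suz.Gen))).map (PresentedGroup.mk (Cfsg.Spor.coxRelators Cfsg.Spor.Suz.edges ∪ {r | r ∈ Cfsg.Spor.Suz.extra})))) = 1782 := by omega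
    rwa [h2] at hd

theorem noTE_suz {K : Type*} [Group K] [Finite K] [IsSimpleGroup K] (h : Cfsg.Spor.IsoSuz K) {p : ℕ}
    [hp : Fact p.Prime] (hp5 : 5 ≤ p) (_hb : Cfsg.Agent.H301.SY.Blk p K) (hO : Cfsg.Agent.H301.SY.ThO p K) :
    Cfsg.Agent.H959.T5.NoTE p K := by
  have hK : Nat.card K = 448345497600 := by
    obtain ⟨e⟩ := h
    rw [Nat.card_congr e.toEquiv]
    exact Cfsg.Agent.SporadicRecognition.SuzOrder.card_Suz
  by_cases hd : p ∣ 1782
  · -- `p = 11`
    have hp11 : p = 11 := by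
      have h1 : (1782 : ℕ) = 2 * 3 * (3 * 3) * (3 * 11) := by norm_num
      rw [h1] at hd
      have h2 := hp.out.prime
      rcases h2.dvd_or_dvd hd with hd | hd
      · rcases h2.dvd_or_dvd hd with hd | hd
        · rcases h2.dvd_or_dvd hd with hd | hd
          · have := Nat.le_of_dvd (by norm_num) hd
            omega
          · have := Nat.le_of_dvd (by norm_num) hd
            omega
        · rcases h2.dvd_or_dvd hd with hd | hd <;>
          · have := Nat.le_of_dvd (by norm_num) hd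
            omega
      · rcases h2.dvd_or_dvd hd with hd | hd
        · have := Nat.le_of_dvd (by norm_num) hd
          omega
        · exact (Nat.prime_dvd_prime_iff_eq hp.out (by norm_num)).1 hd
    subst hp11
    have hna : ¬ IsMulCommutative K := not_comm (by rw [hK]; norm_num)
    have hcyc : ∀ P : Sylow 11 K, IsCyclic (P : Subgroup K) := cyclic_of_card (by rw [hK]; norm_num)
    refine NoTE.of_num hna (by rw [hK]; norm_num) (by norm_num) hcyc hO (fun x hx h2 => ?_) (Or.inr ?_)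
    · have : Fact (Nat.Prime 2) := ⟨by norm_num⟩
      obtain ⟨z, hz⟩ := exists_prime_orderOf_dvd_card' 2 h2
      refine Cfsg.Agent.H393.Iso.na_suz h x (z : K) hx (by rw [Subgroup.orderOf_coe, hz]) ?_
      exact mem_centralizer_iff.1 z.2 x rfl
    · have h2 : Fact (Nat.Prime 2) := ⟨by norm_num⟩
      obtain ⟨T⟩ : Nonempty (Sylow 2 K) := inferInstance
      refine ⟨T, ?_⟩
      intro a j n hT hpa hj hn hpn hna' _
      have hT' : Nat.card T = 2 ^ 13 := by
        exact card_syl T (m := 54729675) (by rw [hK]; norm_num) (by norm_num)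
      rw [hT'] at hT
      have h3 : 13 = a + j := Nat.pow_right_injective le_rfl hT
      have h4 : j ≤ 1 := by
        by_contra h5
        have h6 : 2 ^ 2 ∣ 10 := (pow_dvd_pow 2 (by omega)).trans hj
        norm_num at h6
      have h5 : a = 12 ∨ a = 13 := by omega
      rcases h5 with rfl | rfl <;> norm_num at hpa
  · obtain ⟨e⟩ := h
    have hfin := Finite.of_equiv K e.toEquiv
    exact (suz_sub Cfsg.Agent.SporadicRecognition.SuzOrder.card_Suz hd).congr e

theorem fi22_sub {p : ℕ} [hp : Fact p.Prime] (hp5 : 5 ≤ p) : NoTE p Spor.Fi22 := by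
  have hfin := Cfsg.Agent.CTwoTab.Fi22.finite
  have C := Cfsg.Agent.LThreeFi22.Inst.ctx (MulEquiv.refl Spor.Fi22)
  have hK : Nat.card Spor.Fi22 = 64561751654400 := C.card
  have hr : ∀ n : ℕ, n ∣ 2 → ¬ p ∣ n := by
    intro n hn hpn
    have := Nat.le_of_dvd (by norm_num) (hpn.trans hn)
    omega
  by_cases h5 : p = 5
  · subst h5
    refine NoTE.of_sub fun x hx => ?_
    obtain ⟨t, ht, htx⟩ := C.ex5 x (by rw [← hx]; exact pow_orderOf_eq_one x) (by
      rintro rfl
      rw [orderOf_one] at hx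
      norm_num at hx)
    have ht' : t ∈ Cfsg.Agent.R08.AutT.T := by
      obtain ⟨s, hs, hst⟩ := ht
      have : s = t := hst
      rw [← this]
      exact hs
    obtain ⟨h1, h2⟩ := fi22_cent ht'
    refine ⟨centralizer ({t} : Set Spor.Fi22), ?_, mem_centralizer_singleton_iff.2 htx, hr _ h2⟩
    intro htop
    rw [htop, card_top, hK] at h1
    norm_num at h1
  by_cases h13 : p = 13
  · subst h13
    obtain ⟨e⟩ := Cfsg.Agent.S1686.result
    have h2 := Cfsg.Agent.S0295.result (F := ZMod 3) (by rw [ZMod.card]; decide) 3 le_rfl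
    have hidx := Subgroup.card_mul_index (((Subgroup.closure ({Cfsg.Spor.Fi22.b, Cfsg.Spor.Fi22.c, Cfsg.Spor.Fi22.d, Cfsg.Spor.Fi22.e, Cfsg.Spor.Fi22.f, Cfsg.Spor.Fi22.g, Cfsg.Spor.Fi22.h, Cfsg.Spor.Fi22.i} : Set (FreeGroup Cfsg.Spor.Fi22.Gen))).map (PresentedGroup.mk (Cfsg.Spor.coxRelators Cfsg.Spor.Fi22.edges ∪ {r | r ∈ Cfsg.Spor.Fi22.extra}))))
    rw [Cfsg.Agent.S1685.result] at hidx
    have hi := hidx.trans hK
    have hc : Nat.card (Cfsg.POmega (ZMod 3) (Cfsg.quadFormOdd 3 (ZMod 3))) = 4585351680 := by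
      refine (Nat.card_congr e.toEquiv).symm.trans ?_
      exact Nat.eq_of_mul_eq_mul_right (by norm_num : 0 < 14080)
        (hi.trans (by norm_num : 64561751654400 = 4585351680 * 14080))
    have hfinQ : Finite (Cfsg.POmega (ZMod 3) (Cfsg.quadFormOdd 3 (ZMod 3))) :=
      Nat.finite_of_card_ne_zero (by rw [hc]; norm_num)
    refine noTE_of_index ?_ ?_ (rad_simple (not_solvable (not_comm ?_)) e)
    · intro ht
      have h3 := Cfsg.Agent.S1685.result
      rw [ht, Subgroup.index_top] at h3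
      norm_num at h3
    · rw [Cfsg.Agent.S1685.result]
      norm_num
    · rw [hc]
      norm_num
  · obtain ⟨t, ht⟩ : ∃ t : Spor.Fi22, t ∈ Cfsg.Agent.R08.AutT.T := by
      obtain ⟨a, ha, -⟩ := C.mupos
      obtain ⟨s, hs, hst⟩ := ha
      exact ⟨s, hs⟩
    obtain ⟨h1, h2⟩ := fi22_cent ht
    have hidx := Subgroup.card_mul_index (centralizer ({t} : Set Spor.Fi22))
    rw [h1, hK] at hidx
    have hi : (centralizer ({t} : Set Spor.Fi22)).index = 3510 := by omega
    refine noTE_of_index ?_ ?_ (hr _ h2)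
    · intro htop
      rw [htop, card_top, hK] at h1
      norm_num at h1
    · rw [hi]
      intro hd
      have h1 : (3510 : ℕ) = 2 * 3 * (3 * 3) * (5 * 13) := by norm_num
      rw [h1] at hd
      have h2 := hp.out.prime
      rcases h2.dvd_or_dvd hd with hd | hd
      · rcases h2.dvd_or_dvd hd with hd | hd
        · rcases h2.dvd_or_dvd hd with hd | hd
          · have := Nat.le_of_dvd (by norm_num) hd
            omega
          · have := Nat.le_of_dvd (by norm_num) hd
            omega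
        · rcases h2.dvd_or_dvd hd with hd | hd <;>
          · have := Nat.le_of_dvd (by norm_num) hd
            omega
      · rcases h2.dvd_or_dvd hd with hd | hd
        · exact h5 ((Nat.prime_dvd_prime_iff_eq hp.out (by norm_num)).1 hd)
        · exact h13 ((Nat.prime_dvd_prime_iff_eq hp.out (by norm_num)).1 hd)

theorem noTE_fi22 {K : Type*} [Group K] [Finite K] [IsSimpleGroup K] (h : Cfsg.Spor.IsoFi22 K) {p : ℕ}
    [hp : Fact p.Prime] (hp5 : 5 ≤ p) (_hb : Cfsg.Agent.H301.SY.Blk p K) (_hO : Cfsg.Agent.H301.SY.ThO p K) :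
    Cfsg.Agent.H959.T5.NoTE p K := by
  obtain ⟨e⟩ := h
  have hfin := Cfsg.Agent.CTwoTab.Fi22.finite
  exact (fi22_sub hp5).congr e

end Cfsg.Agent.H54.TE
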